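import Mathlib.LinearAlgebra.Dimension.Finrank
import Mathlib.LinearAlgebra.FiniteDimensional.Basic
import Mathlib.LinearAlgebra.FiniteDimensional.Lemmas
import Mathlib.Tactic.Linarith

/-!
# Dimension counts for the base-point-free pencil trick
-/

set_option autoImplicit false

namespace Groth.Agent.Old.H24.LinAlg

variable {k V₀ V₁ V₂ : Type*} [Field k] [AddCommGroup V₀] [Module k V₀] [AddCommGroup V₁]
  [Module k V₁] [AddCommGroup V₂] [Module k V₂]

/-- If `V₀ → V₁ × V₁ → V₂` is exact in the middle then `2 dim V₁ ≤ dim V₀ + dim V₂`. -/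
theorem two_mul_le [Module.Finite k V₀] [Module.Finite k V₁] [Module.Finite k V₂]
    (A B : V₀ →ₗ[k] V₁) (C D : V₁ →ₗ[k] V₂)
    (h : ∀ a b : V₁, C a = D b → ∃ c : V₀, A c = a ∧ B c = b) :
    2 * Module.finrank k V₁ ≤ Module.finrank k V₀ + Module.finrank k V₂ := by
  let Φ : V₁ × V₁ →ₗ[k] V₂ := (C.comp (LinearMap.fst k V₁ V₁)) - (D.comp (LinearMap.snd k V₁ V₁))
  let Ψ : V₀ →ₗ[k] V₁ × V₁ := A.prod B
  have h1 := Φ.finrank_range_add_finrank_ker
  have h2 : Module.finrank k (LinearMap.range Φ) ≤ Module.finrank k V₂ := Submodule.finrank_le _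
  have h3 : LinearMap.ker Φ ≤ LinearMap.range Ψ := by
    rintro ⟨a, b⟩ hab
    have : C a - D b = 0 := hab
    obtain ⟨c, hc1, hc2⟩ := h a b (sub_eq_zero.1 this)
    exact ⟨c, by ext; exacts [hc1, hc2]⟩
  have h4 : Module.finrank k (LinearMap.ker Φ) ≤ Module.finrank k (LinearMap.range Ψ) :=
    Submodule.finrank_mono h3
  have h5 : Module.finrank k (LinearMap.range Ψ) ≤ Module.finrank k V₀ := LinearMap.finrank_range_le _
  rw [Module.finrank_prod] at h1
  omega

/-- Convexity: a sequence with `a 1 = a 0 + d` and `2 a (n+1) ≤ a n + a (n+2)` grows at least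
linearly. -/
theorem growth (a : ℕ → ℕ) (d : ℕ) (h1 : a 0 + d ≤ a 1)
    (h : ∀ n, 2 * a (n + 1) ≤ a n + a (n + 2)) (n : ℕ) : a n + d ≤ a (n + 1) := by
  induction n with
  | zero => exact h1
  | succ n ih =>
    have := h n
    rw [show n + 1 + 1 = n + 2 from rfl]
    omega

theorem growth' (a : ℕ → ℕ) (d : ℕ) (h1 : a 0 + d ≤ a 1)
    (h : ∀ n, 2 * a (n + 1) ≤ a n + a (n + 2)) (n : ℕ) : a 0 + n * d ≤ a n := by
  induction n with
  | zero => simp
  | succ n ih =>
    have := growth a d h1 h n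
    have h2 : (n + 1) * d = n * d + d := by ring
    omega

/-- In an exact sequence `0 → V₀ → V₁ → V₂`, `dim V₁ ≤ dim V₀ + dim V₂`, with equality only if the last map is
surjective. -/
theorem le_and_surjective [Module.Finite k V₁] [Module.Finite k V₂]
    (f : V₀ →ₗ[k] V₁) (g : V₁ →ₗ[k] V₂) (hf : Function.Injective f) (hfg : Function.Exact f g) :
    Module.finrank k V₁ ≤ Module.finrank k V₀ + Module.finrank k V₂ ∧
      (Module.finrank k V₁ = Module.finrank k V₀ + Module.finrank k V₂ → Function.Surjective g) := by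
  have h1 := g.finrank_range_add_finrank_ker
  rw [hfg.linearMap_ker_eq, LinearMap.finrank_range_of_inj hf] at h1
  have h2 : Module.finrank k (LinearMap.range g) ≤ Module.finrank k V₂ := Submodule.finrank_le _
  refine ⟨by omega, fun h => ?_⟩
  rw [← LinearMap.range_eq_top]
  apply Submodule.eq_top_of_finrank_eq
  omega

end Groth.Agent.Old.H24.LinAlg
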