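import Groth.Agent.Ega2.TensGen
import Groth.Agent.VarietyA.EulerLES

/-!
# Multiplication by global sections of an invertible module, the Koszul sequence of two sections

For `m : Γ(L, ⊤)`, `mulHom F m : F ⟶ F ⊗ L` is multiplication by `m`.  If locally `s` or `t`
generates `L`, then `0 → Γ(F) → Γ(F ⊗ L)² → Γ(F ⊗ L ⊗ L)` is exact.
-/

set_option autoImplicit false
universe u
open CategoryTheory CategoryTheory.Limits AlgebraicGeometry Opposite TopologicalSpace
open Groth.Agent.Fdesc.LocGen

namespace Groth.Agent.Old.H24.MulHom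

variable {X : Scheme.{u}}

/-- Multiplication by a global section of `L`. -/
noncomputable def mulHom (F : X.Modules) {L : X.Modules} (m : Γ(L, ⊤)) : F ⟶ CohB1.tensorMod F L :=
  mkHom
    (fun U =>
      { toFun := fun t => tmul t (res L le_top m)
        map_zero' := Groth.Agent.Ega2.TensGen.zero_tmul _
        map_add' := fun t t' => add_tmul t t' _ })
    (fun _ a t => smul_tmul a t _)
    (fun U V h t => by
      change tmul (res F h t) (res L le_top m) = res (CohB1.tensorMod F L) h (tmul t (res L le_top m))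
      rw [res_tmul, res_res])

theorem mulHom_app (F : X.Modules) {L : X.Modules} (m : Γ(L, ⊤)) (U : X.Opens) (t : Γ(F, U)) :
    (mulHom F m).app U t = tmul t (res L le_top m) := rfl

/-- The two orders of multiplication by sections of an invertible module agree. -/
theorem tmul_tmul_comm {F L : X.Modules} (hL : PicF.IsInvertible L) {U : X.Opens} (a : Γ(F, U))
    (m n : Γ(L, U)) : tmul (tmul a m) n = tmul (tmul a n) m := by
  choose V e hV he using (isInvertible_iff L).1 hL
  refine res_ext _ (fun x : U => V x.1 ⊓ U) (fun _ => inf_le_right)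
    (fun x hx => Opens.mem_iSup.mpr ⟨⟨x, hx⟩, hV x, hx⟩) fun x => ?_
  rw [res_tmul, res_tmul, res_tmul, res_tmul]
  have he' := (he x.1).res (inf_le_left : V x.1 ⊓ U ≤ V x.1)
  obtain ⟨f, hf⟩ := he'.exists_eq (res L inf_le_right m)
  obtain ⟨g, hg⟩ := he'.exists_eq (res L inf_le_right n)
  rw [hf, hg, tmul_smul, tmul_smul, smul_tmul, tmul_smul, tmul_smul, smul_tmul, smul_smul,
    smul_smul, mul_comm]

/-- `s` or `t` generates `L` near every point. -/
def Covers {L : X.Modules} (s t : Γ(L, ⊤)) : Prop :=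
  ∀ x : X, ∃ V : X.Opens, x ∈ V ∧ (IsGen (res L (le_top (a := V)) s) ∨ IsGen (res L (le_top (a := V)) t))

theorem Covers.ext {F L : X.Modules} {s t : Γ(L, ⊤)} (h : Covers s t) {U : X.Opens} {c c' : Γ(F, U)}
    (h1 : tmul c (res L le_top s) = tmul c' (res L le_top s))
    (h2 : tmul c (res L le_top t) = tmul c' (res L le_top t)) : c = c' := by
  choose V hV hg using h
  refine res_ext _ (fun x : U => V x.1 ⊓ U) (fun _ => inf_le_right)
    (fun x hx => Opens.mem_iSup.mpr ⟨⟨x, hx⟩, hV x, hx⟩) fun x => ?_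
  have e1 := congr(res (CohB1.tensorMod F L) (inf_le_right : V x.1 ⊓ U ≤ U) $h1)
  have e2 := congr(res (CohB1.tensorMod F L) (inf_le_right : V x.1 ⊓ U ≤ U) $h2)
  rw [res_tmul, res_tmul, res_res] at e1 e2
  rcases hg x.1 with hs | ht
  · have := hs.res (inf_le_left : V x.1 ⊓ U ≤ V x.1)
    rw [res_res] at this
    exact Groth.Agent.Ega2.TensGen.tmul_gen_injective this e1
  · have := ht.res (inf_le_left : V x.1 ⊓ U ≤ V x.1)
    rw [res_res] at this
    exact Groth.Agent.Ega2.TensGen.tmul_gen_injective this e2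

/-- Exactness of the Koszul sequence on global sections. -/
theorem Covers.exists_eq {F L : X.Modules} (hL : PicF.IsInvertible L) {s t : Γ(L, ⊤)}
    (h : Covers s t) (a b : Γ(CohB1.tensorMod F L, ⊤)) (hab : tmul a t = tmul b s) :
    ∃ c : Γ(F, ⊤), tmul c s = a ∧ tmul c t = b := by
  have key : ∀ x : X, ∃ (V : X.Opens), x ∈ V ∧ ∃ c : Γ(F, V),
      tmul c (res L le_top s) = res (CohB1.tensorMod F L) le_top a ∧
      tmul c (res L le_top t) = res (CohB1.tensorMod F L) le_top b := by
    intro x
    obtain ⟨V, hxV, hg⟩ := h x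
    refine ⟨V, hxV, ?_⟩
    have hab' := congr(res (CohB1.tensorMod (CohB1.tensorMod F L) L) (le_top : V ≤ ⊤) $hab)
    rw [res_tmul, res_tmul] at hab'
    rcases hg with hs | ht
    · obtain ⟨c, hc⟩ := (Groth.Agent.Ega2.TensGen.tmul_gen_bijective (F := F) hs).2
        (res (CohB1.tensorMod F L) le_top a)
      dsimp only at hc
      refine ⟨c, hc, ?_⟩
      apply Groth.Agent.Ega2.TensGen.tmul_gen_injective hs
      dsimp only
      rw [← hab', ← hc]
      exact tmul_tmul_comm hL c _ _
    · obtain ⟨c, hc⟩ := (Groth.Agent.Ega2.TensGen.tmul_gen_bijective (F := F) ht).2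
        (res (CohB1.tensorMod F L) le_top b)
      dsimp only at hc
      refine ⟨c, ?_, hc⟩
      apply Groth.Agent.Ega2.TensGen.tmul_gen_injective ht
      dsimp only
      rw [hab', ← hc]
      exact tmul_tmul_comm hL c _ _
  choose V hV c hc1 hc2 using key
  have hcov : (⊤ : X.Opens) ≤ ⨆ x, V x := fun x _ => Opens.mem_iSup.mpr ⟨x, hV x⟩
  obtain ⟨d, hd⟩ := res_glue F V (fun _ => le_top) hcov c (by
    intro x y
    apply h.ext
    · have e1 := congr(res (CohB1.tensorMod F L) (inf_le_left : V x ⊓ V y ≤ V x) $(hc1 x))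
      have e2 := congr(res (CohB1.tensorMod F L) (inf_le_right : V x ⊓ V y ≤ V y) $(hc1 y))
      rw [res_tmul, res_res, res_res] at e1 e2
      exact e1.trans e2.symm
    · have e1 := congr(res (CohB1.tensorMod F L) (inf_le_left : V x ⊓ V y ≤ V x) $(hc2 x))
      have e2 := congr(res (CohB1.tensorMod F L) (inf_le_right : V x ⊓ V y ≤ V y) $(hc2 y))
      rw [res_tmul, res_res, res_res] at e1 e2
      exact e1.trans e2.symm)
  refine ⟨d, ?_, ?_⟩
  · refine res_ext _ V (fun _ => le_top) hcov fun x => ?_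
    rw [res_tmul, hd, hc1]
  · refine res_ext _ V (fun _ => le_top) hcov fun x => ?_
    rw [res_tmul, hd, hc2]

end Groth.Agent.Old.H24.MulHom
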