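import Groth.Agent.CurvesB.InvEmb
import Groth.Agent.Old.H24.MulHom

/-!
# A second section without common zeros on an integral curve

If `s : O_X ⟶ L` is a nonzero section of an invertible module on an integral Noetherian scheme of
dimension at most one and `Γ(L) → Γ(L / s O_X)` is surjective then there is a global section `t` of `L` such
that near every point `s` or `t` generates `L`.
-/

set_option autoImplicit false
universe u
open CategoryTheory CategoryTheory.Limits AlgebraicGeometry Opposite TopologicalSpace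
open Groth.Agent.Fdesc.LocGen Groth.Agent.CurvesB.RankOne Groth.Agent.Old.H24.MulHom
open Groth.Agent.CurvesB.InvEmb

namespace Groth.Agent.Old.H24.SecondSection

variable {X : Scheme.{u}}

/-- The cokernel of a section has no sections over opens where the section generates. -/
theorem subsingleton_cokernel {L Q : X.Modules} (s : Coh.structureModule X ⟶ L) (q : L ⟶ Q) [Epi q]
    (hq : s ≫ q = 0) {V : X.Opens} (hV : V ≤ CohB1.genLocus L s) (v : Γ(Q, V)) : v = 0 := by
  refine Groth.Agent.Ega2.Tens.eq_of_locally_eq Q v 0 fun x hx => ?_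
  obtain ⟨W, hW, t, hxW, ht⟩ := Groth.Agent.CohqB.QCSheaf.exists_local_lift q v x hx
  refine ⟨W, homOfLE hW, hxW, ?_⟩
  rw [map_zero, ← ht]
  have hg : IsGen (sec s W) := (le_genLocus_iff s W).1 (hW.trans hV)
  obtain ⟨a, ha⟩ := hg.exists_eq t
  rw [ha, ← app_ofFun]
  have h3 : q.app W (s.app W (ofFun a)) = (s ≫ q).app W (ofFun a) := rfl
  rw [h3, hq]
  rfl

/-- The generating locus of a nonzero section on an integral scheme is nonempty. -/
theorem genLocus_nonempty [IsIntegral X] {L : X.Modules} (hL : PicF.IsInvertible L)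
    (s : Coh.structureModule X ⟶ L) (hs : s ≠ 0) : (CohB1.genLocus L s : Set X).Nonempty := by
  obtain ⟨U, e, hxU, he⟩ := (isInvertible_iff L).1 hL (genericPoint X)
  obtain ⟨a, ha⟩ := he.exists_eq (sec s U)
  have ha0 : a ≠ 0 := by
    rintro rfl
    apply hs
    rw [zero_smul] at ha
    have h1 : sec s ⊤ = 0 := by
      refine (locEmb_of_isInvertible hL).eq_zero (le_top (a := U)) ⟨_, hxU⟩ _ ?_
      exact (res_sec s le_top).trans ha
    ext V m
    have h2 := app_ofFun s (ofFun.symm m)
    rw [← res_sec s (le_top (a := V)), h1, map_zero, smul_zero] at h2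
    exact h2
  have hb : (X.basicOpen a : Set X).Nonempty := by
    rw [Set.nonempty_iff_ne_empty]
    intro h0
    apply ha0
    rw [← basicOpen_eq_bot_iff]
    exact TopologicalSpace.Opens.ext h0
  rw [← genLocus_inf_eq s he ha] at hb
  exact hb.mono fun x hx => hx.1

variable [IsIntegral X] [IsNoetherian X]

theorem exists_covers (hd : topologicalKrullDim X ≤ 1) {L Q : X.Modules} (hL : PicF.IsInvertible L)
    (s : Coh.structureModule X ⟶ L) [Mono s] (hs : s ≠ 0) (q : L ⟶ Q) [Epi q] (hq : s ≫ q = 0)
    (hex : (ShortComplex.mk s q hq).Exact) (hsurj : Function.Surjective (q.app ⊤)) :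
    ∃ t : Γ(L, ⊤), Covers (sec s ⊤) t := by
  have hns : TopologicalSpace.NoetherianSpace X := inferInstance
  set G := CohB1.genLocus L s with hG
  have hGn : (G : Set X).Nonempty := genLocus_nonempty hL s hs
  have hZ : IsClosed ((G : Set X)ᶜ) := G.isOpen.isClosed_compl
  have hZne : (G : Set X)ᶜ ≠ Set.univ := by
    intro h
    obtain ⟨x, hx⟩ := hGn
    exact (h ▸ Set.mem_univ x : x ∈ (G : Set X)ᶜ) hx
  choose U e hxU he using (isInvertible_iff L).1 hL
  -- shrunken neighbourhoods meeting the zero locus of `s` at most in the given point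
  let O : X → X.Opens := fun x => ⟨((G : Set X)ᶜ \ {x})ᶜ,
    (Groth.Agent.VarietyA.Flasque1.isClosed_of_subset_of_ne_univ hd hZ hZne
      (Set.sdiff_subset)).isOpen_compl⟩
  let W : X → X.Opens := fun x => U x ⊓ O x
  have hxW : ∀ x, x ∈ W x := fun x => ⟨hxU x, fun h => h.2 rfl⟩
  have hWW : ∀ x y, x ≠ y → W x ⊓ W y ≤ G := by
    intro x y hxy z hz
    by_contra hzG
    have h1 : z = x := by
      by_contra h
      exact hz.1.2 ⟨hzG, h⟩
    have h2 : z = y := by
      by_contra h
      exact hz.2.2 ⟨hzG, h⟩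
    exact hxy (h1.symm.trans h2)
  have hcov : (⊤ : X.Opens) ≤ ⨆ x, W x := fun x _ => Opens.mem_iSup.mpr ⟨x, hxW x⟩
  obtain ⟨c, hc⟩ := res_glue Q W (fun _ => le_top) hcov
    (fun x => q.app (W x) (res L inf_le_left (e x))) (by
      intro x y
      by_cases hxy : x = y
      · subst hxy
        rfl
      · rw [subsingleton_cokernel s q hq (hWW x y hxy) (res Q inf_le_left _),
          subsingleton_cokernel s q hq (hWW x y hxy) (res Q inf_le_right _)])
  obtain ⟨t, ht⟩ := hsurj c
  refine ⟨t, fun x => ?_⟩
  by_cases hxG : x ∈ G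
  · refine ⟨G, hxG, Or.inl ?_⟩
    rw [res_sec]
    exact isGen_sec_genLocus s
  · -- `t` generates near `x`
    have h1 : q.app (W x) (res L le_top t - res L inf_le_left (e x)) = 0 := by
      rw [map_sub, app_res, ht, hc, sub_self]
    obtain ⟨a, ha⟩ := Groth.Agent.CohqB.QC4.exists_of_exact hex (W x) _ h1
    have hex' : IsGen (res L (inf_le_left : W x ≤ U x) (e x)) := (he x).res _
    obtain ⟨f, hf⟩ := hex'.exists_eq (sec s (W x))
    have h2 : res L (le_top (a := W x)) t = (1 + (ofFun.symm a) * f) • res L inf_le_left (e x) := by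
      have h3 : s.app (W x) a = (ofFun.symm a) • sec s (W x) := app_ofFun s (ofFun.symm a)
      rw [add_smul, one_smul, mul_smul, ← hf, ← h3]
      have h4 : s.app (W x) a = res L le_top t - res L inf_le_left (e x) := ha
      rw [h4]
      abel
    have hxf : x ∉ X.basicOpen f := by
      rw [← genLocus_inf_eq s hex' hf]
      exact fun h => hxG h.1
    have hx1 : x ∈ X.basicOpen (1 + (ofFun.symm a) * f) := by
      rw [Scheme.mem_basicOpen _ _ _ (hxW x)] at hxf ⊢
      rw [map_add, map_one, map_mul]
      have hm : X.presheaf.germ (W x) x (hxW x) f ∈ IsLocalRing.maximalIdeal (X.presheaf.stalk x) := by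
        rwa [IsLocalRing.mem_maximalIdeal]
      have hm2 := Ideal.mul_mem_left _ (X.presheaf.germ (W x) x (hxW x) (ofFun.symm a)) hm
      by_contra hnu
      have hm3 := (IsLocalRing.mem_maximalIdeal _).2 hnu
      have hm4 := (IsLocalRing.maximalIdeal (X.presheaf.stalk x)).sub_mem hm3 hm2
      rw [add_sub_cancel_right] at hm4
      exact (Ideal.ne_top_iff_one _).1 (IsLocalRing.maximalIdeal.isMaximal _).ne_top hm4
    refine ⟨X.basicOpen (1 + (ofFun.symm a) * f), hx1, Or.inr ?_⟩
    have h5 : res L (le_top (a := X.basicOpen (1 + (ofFun.symm a) * f))) t =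
        res L (X.basicOpen_le _) (res L (le_top (a := W x)) t) := by
      rw [Fdesc.LocGen.res_res]
    rw [h5, h2, res_smul]
    exact (hex'.res _).unit_smul (X.toRingedSpace.isUnit_res_basicOpen _)

end Groth.Agent.Old.H24.SecondSection
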